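import Cfsg.Agent.H477.HC.N9

/-!
# `Ω⁻₈(2)` : a character of degree divisible by `10` (hub H5, helper477)
-/

set_option autoImplicit false

open scoped ComplexConjugate
open Cfsg

namespace Cfsg.Agent.H477.HC

open Cfsg.Agent.OddOrderCharacters.Clifford Cfsg.Agent.Characters MulAction Module Cfsg.Agent.H53.HC
open Cfsg.Agent.H749.Two Cfsg.Agent.ClassicalGeometry.Reflection Cfsg.Agent.ClassicalGeometry.OrthDickson

universe u v w x

theorem cnt3 : ∀ a b : ZMod 2, (∀ z₁ z₂ : ZMod 2, z₁ ^ 2 + a * z₁ * z₂ + b * z₂ ^ 2 = 0 → z₁ = 0 ∧ z₂ = 0) →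
    ∀ x : (Fin 1 ⊕ Fin 1) ⊕ Fin 2 → ZMod 2, quadFormMinus 1 (ZMod 2) a b x = 1 →
    (Finset.univ.filter (fun v : (Fin 1 ⊕ Fin 1) ⊕ Fin 2 → ZMod 2 => v ≠ 0 ∧ quadFormMinus 1 (ZMod 2) a b v = 0 ∧
      quadFormMinus 1 (ZMod 2) a b (v + x) - quadFormMinus 1 (ZMod 2) a b v - quadFormMinus 1 (ZMod 2) a b x = 0)).card = 3 := by
  decide +kernel

theorem CForm.IsRefl.fix_iff {V : Type v} [AddCommGroup V] [Module (ZMod 2) V] {F : CForm (ZMod 2) V} {r : F.iso} {n : V}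
    (hr : F.IsRefl r n) {v : V} (h0 : v ≠ 0) (hv : F.Sing v) : r • F.pt v h0 hv = F.pt v h0 hv ↔ F.B v n = 0 := by
  have hn0 : n ≠ 0 := by
    rintro rfl
    have := hr.1
    rw [F.Q_zero] at this
    exact absurd this (by decide)
  rw [CForm.smul_pt, CForm.pt_eq_iff]
  constructor
  · rintro ⟨c, hc, h3⟩
    rw [CForm.eq_one2 c hc, one_smul, hr.2] at h3
    exact (smul_eq_zero.1 (add_eq_left.1 h3)).resolve_right hn0
  · intro h
    exact ⟨1, one_ne_zero, by rw [hr.2, h, zero_smul, add_zero, one_smul]⟩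

theorem CForm.IsRefl.sq {V : Type v} [AddCommGroup V] [Module (ZMod 2) V] {F : CForm (ZMod 2) V} {r : F.iso} {n : V}
    (hr : F.IsRefl r n) (halt : ∀ v, F.B v v = 0) : r * r = 1 := by
  apply Subtype.ext
  apply LinearEquiv.ext
  intro v
  change ((r * r : F.iso) : V ≃ₗ[ZMod 2] V) v = v
  have e1 := hr.2 v
  rw [CForm.mul_apply', e1, map_add, map_smul, e1, hr.2 n, halt, zero_smul, add_zero,
    add_assoc, ← two_smul (ZMod 2), show (2 : ZMod 2) = 0 from rfl, zero_smul, add_zero]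

section psi5

variable (a b : ZMod 2) (hab : ∀ z₁ z₂ : ZMod 2, z₁ ^ 2 + a * z₁ * z₂ + b * z₂ ^ 2 = 0 → z₁ = 0 ∧ z₂ = 0)

theorem nf_refl (r : (CForm.minusF (ZMod 2) 1 a b hab).iso) (n : (Fin 1 ⊕ Fin 1) ⊕ Fin 2 → ZMod 2)
    (hr : (CForm.minusF (ZMod 2) 1 a b hab).IsRefl r n) :
    Cfsg.Agent.H621.AltChar.nf (CForm.minusF (ZMod 2) 1 a b hab).Pt r = 3 := by
  have h1 := cnt3 a b hab n hr.1
  have hB : ∀ v, (CForm.minusF (ZMod 2) 1 a b hab).B v n = quadFormMinus 1 (ZMod 2) a b (v + n) -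
      quadFormMinus 1 (ZMod 2) a b v - quadFormMinus 1 (ZMod 2) a b n := fun v => minus_hB (ZMod 2) 1 a b hab v n
  unfold Cfsg.Agent.H621.AltChar.nf
  rw [← h1, ← Fintype.card_subtype, ← Nat.card_eq_fintype_card]
  symm
  refine Nat.card_congr (Equiv.ofBijective (fun v => ⟨(CForm.minusF (ZMod 2) 1 a b hab).pt v.1 v.2.1
    ⟨v.2.2.1, (CForm.minusF (ZMod 2) 1 a b hab).alt _ v.2.2.1⟩, ?_⟩) ⟨?_, ?_⟩)
  · exact (hr.fix_iff _ _).2 (by rw [hB]; exact v.2.2.2)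
  · rintro ⟨v, hv⟩ ⟨v', hv'⟩ he
    obtain ⟨c, hc, h3⟩ := (CForm.pt_eq_iff (CForm.minusF (ZMod 2) 1 a b hab) (h0 := hv.1) (h0' := hv'.1)
      (hv := ⟨hv.2.1, (CForm.minusF (ZMod 2) 1 a b hab).alt _ hv.2.1⟩)
      (hw := ⟨hv'.2.1, (CForm.minusF (ZMod 2) 1 a b hab).alt _ hv'.2.1⟩)).1 (congrArg Subtype.val he)
    apply Subtype.ext
    rw [CForm.eq_one2 c hc, one_smul] at h3
    exact h3
  · rintro ⟨y, hy⟩
    obtain ⟨v, hv0, hv, rfl⟩ := CForm.exists_pt _ y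
    have h5 : (CForm.minusF (ZMod 2) 1 a b hab).B v n = 0 := (hr.fix_iff hv0 hv).1 hy
    exact ⟨⟨v, hv0, hv.1, by rw [← hB]; exact h5⟩, rfl⟩

/-- the character of degree `5` of `O⁻₄(2)` -/
theorem exists_psi5' : ∃ ψ : (CForm.minusF (ZMod 2) 1 a b hab).iso → ℂ,
    IsIrrCharacter (CForm.minusF (ZMod 2) 1 a b hab).iso ψ ∧ ψ 1 = ((5 : ℕ) : ℂ) ∧ (∀ g, ∃ q : ℚ, ψ g = q) ∧
    ∀ r n, (CForm.minusF (ZMod 2) 1 a b hab).IsRefl r n → ψ r = 1 := by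
  classical
  have : Finite (CForm.minusF (ZMod 2) 1 a b hab).Pt :=
    inferInstanceAs (Finite {W : Submodule (ZMod 2) ((Fin 1 ⊕ Fin 1) ⊕ Fin 2 → ZMod 2) //
      W ∈ (CForm.minusF (ZMod 2) 1 a b hab).Om 1})
  have := finite_iso (CForm.minusF (ZMod 2) 1 a b hab)
  let _ : Fintype (CForm.minusF (ZMod 2) 1 a b hab).iso := Fintype.ofFinite _
  have h1 := Cfsg.Agent.H621.AltChar.irr_a (CForm.minusF (ZMod 2) 1 a b hab).iso (CForm.minusF (ZMod 2) 1 a b hab).Pt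
    (card_pt5 a b hab).ge (multiTrans (perm_surj a b hab) 4)
  refine ⟨_, h1, ?_, fun g => ⟨(((Cfsg.Agent.H621.AltChar.nf (CForm.minusF (ZMod 2) 1 a b hab).Pt g : ℚ) ^ 2 -
    3 * Cfsg.Agent.H621.AltChar.nf (CForm.minusF (ZMod 2) 1 a b hab).Pt g +
    Cfsg.Agent.H621.AltChar.nu (CForm.minusF (ZMod 2) 1 a b hab).Pt g) / 2), by push_cast; rfl⟩, fun r n hr => ?_⟩
  · rw [Cfsg.Agent.H621.AltChar.nf_one, Cfsg.Agent.H621.AltChar.nu_one, card_pt5]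
    norm_num
  · have h2 := Cfsg.Agent.H621.AltChar.nf_mul_self (Ω := (CForm.minusF (ZMod 2) 1 a b hab).Pt) r
    have h3 : r * r = 1 :=
      hr.sq (CForm.alt_of_hB (F := CForm.minusF (ZMod 2) 1 a b hab) (minus_hB (ZMod 2) 1 a b hab))
    rw [h3, Cfsg.Agent.H621.AltChar.nf_one, card_pt5, nf_refl a b hab r n hr] at h2
    have h4 : Cfsg.Agent.H621.AltChar.nu (CForm.minusF (ZMod 2) 1 a b hab).Pt r = 2 := by omega
    change ((Cfsg.Agent.H621.AltChar.nf (CForm.minusF (ZMod 2) 1 a b hab).Pt r : ℂ) ^ 2 -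
      3 * Cfsg.Agent.H621.AltChar.nf (CForm.minusF (ZMod 2) 1 a b hab).Pt r +
      Cfsg.Agent.H621.AltChar.nu (CForm.minusF (ZMod 2) 1 a b hab).Pt r) / 2 = 1
    rw [h4, nf_refl a b hab r n hr]
    norm_num

end psi5

/-- the reflections as isometries -/
theorem exists_refl {ι : Type} [Fintype ι] [DecidableEq ι] {q : (ι → ZMod 2) → ZMod 2} (Q : QuadraticForm (ZMod 2) (ι → ZMod 2))
    (e : ⇑Q = q) (hnd' : Cfsg.Agent.LieClassical.OrthCore.Nondeg Q) (h4 : Fintype.card ι ≠ 4) {n : ι → ZMod 2} (hn : q n = 1) :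
    ∃ r : isometryGroup (ZMod 2) q, r ∉ commutator (isometryGroup (ZMod 2) q) ∧
      ∀ v, ((r : GL ι (ZMod 2)) : Matrix ι ι (ZMod 2)).mulVec v = v + (q (v + n) - q v - q n) • n := by
  subst e
  have hnd : (QuadraticMap.polarBilin Q).Nondegenerate := ⟨hnd', fun y hy => hnd' y fun x => by
    rw [QuadraticMap.polar_comm]; exact hy x⟩
  have hn' : Q n ≠ 0 := by rw [hn]; exact one_ne_zero
  refine ⟨reflIso Q n hn', refl_notMem_commutator Q hnd (Or.inr h4) n hn', fun v => ?_⟩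
  have e1 : Q (v + n) - Q v - Q n = QuadraticMap.polar Q v n := rfl
  rw [coe_reflIso, reflectionMatrix_mulVec, e1, hn, inv_one, one_mul, QuadraticMap.polar_comm, sub_eq_add_neg,
    ← neg_smul]
  congr 2
  exact (by decide : ∀ x : ZMod 2, -x = x) _

section main

variable (a b : ZMod 2) (hab : ∀ z₁ z₂ : ZMod 2, z₁ ^ 2 + a * z₁ * z₂ + b * z₂ ^ 2 = 0 → z₁ = 0 ∧ z₂ = 0)

/-- `O⁻₈(2)` -/
theorem ch_o8m' : ∃ (c d : ℕ) (χ₁ : (CForm.minusF (ZMod 2) 3 a b hab).iso → ℂ),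
    IsIrrCharacter (CForm.minusF (ZMod 2) 3 a b hab).iso χ₁ ∧ χ₁ 1 = ((2 ^ c * d : ℕ) : ℂ) ∧ (2 ^ c + 1) * d = 5355 ∧
    c ≤ 9 ∧ (c ≠ 0 → Even (c + 9)) ∧
    ∃ n, (CForm.minusF (ZMod 2) 3 a b hab).Q n = 1 ∧
      ∀ r, (CForm.minusF (ZMod 2) 3 a b hab).IsRefl r n → χ₁ r ≠ 0 := by
  classical
  obtain ⟨e, f, j, h⟩ := CForm.frm_minus (K := ZMod 2) hab (k := 2) (n := 1) (m := 3) rfl
  obtain ⟨ψ, hψ, hψ1, hψq, hψr⟩ := exists_psi5' a b hab
  have halt := CForm.alt_of_hB (F := CForm.minusF (ZMod 2) 3 a b hab) (minus_hB (ZMod 2) 3 a b hab)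
  have hU : Nat.card (CForm.Us (CForm.minusF (ZMod 2) 3 a b hab) e) = 2 ^ 9 := by
    rw [h.card_Us_orth halt (fun x => rfl)]
    rw [Nat.card_eq_fintype_card]
    simp
  have hno : ∀ W' ∈ (CForm.minusF (ZMod 2) 3 a b hab).Om 2, Submodule.span (ZMod 2) (Set.range e) ≤
      (CForm.minusF (ZMod 2) 3 a b hab).perp W' → Submodule.span (ZMod 2) (Set.range e) ⊓ W' = ⊥ → False :=
    no_disj (m := 3) (fun W hW => minus_witt (ZMod 2) a b hab 3 W hW) (by norm_num) h.mem_Om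
  have := finite_iso (CForm.minusF (ZMod 2) 3 a b hab)
  let _ : Fintype (CForm.minusF (ZMod 2) 3 a b hab).iso := Fintype.ofFinite _
  let _ : Fintype (stabW (CForm.minusF (ZMod 2) 3 a b hab).iso.subtype (Submodule.span (ZMod 2) (Set.range e))) :=
    Fintype.ofFinite _
  let _ : Fintype (CForm.Us (CForm.minusF (ZMod 2) 3 a b hab) e) := Fintype.ofFinite _
  obtain ⟨w, hw1, hw2, hw3⟩ := h.exists_w
  have hcmp := h.cmp rfl
  obtain ⟨pr, hρ1, hρ2, hρ3⟩ := hcmp.exists_rho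
  have hsurj : Function.Surjective pr := fun b => by
    obtain ⟨g, hg, -⟩ := hρ3 1 b
    exact ⟨g, hg⟩
  obtain ⟨m, ρ₀, hρ₀, rfl⟩ := id hψ
  let bb : Basis (Fin 2) (ZMod 2) (Submodule.span (ZMod 2) (Set.range e)) := finBasisOfFinrankEq (ZMod 2) _ h.mem_Om.2
  obtain ⟨-, A, c, d, χ₁, χ₂, ⟨h1, h2, hs, h3, h4, h5, h6, h7⟩, -, -, -, hx⟩ := h.two_data rfl (by norm_num) CForm.ε_two
    hw1 hw2 hw3 bb (sgnGL_iota _) sgnGL_cusp (fun A => ⟨((sgM (A : Matrix (Fin 2) (Fin 2) (ZMod 2)) : ℤ) : ℚ), by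
      rw [sgnGL_val]; push_cast; rfl⟩) hρ1 hρ2 hsurj ρ₀ hψ hψ1 hψq
    (fun W' hW' k1 k2 => (hno W' hW' k1 k2).elim) Nat.prime_two hU
  refine ⟨c, d, χ₁, h1, h3, ?_, h6, h7, ?_⟩
  · rw [h5]
    have h8 := (CForm.minusF (ZMod 2) 3 a b hab).card_iso_eq h.mem_Om
    rw [h.card_par rfl, hU, card_GL22, card_o4, card_minusF, Nat.card_zmod] at h8
    obtain ⟨n, hn⟩ : ∃ n, n = Nat.card ((CForm.minusF (ZMod 2) 3 a b hab).Om 2) := ⟨_, rfl⟩
    rw [← hn] at h8 ⊢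
    norm_num [Finset.prod_range_succ] at h8
    omega
  · -- a reflection
    let x₀ : (Fin 1 ⊕ Fin 1) ⊕ Fin 2 → ZMod 2 := Sum.elim (fun _ => 0) ![1, 0]
    have hx₀ : quadFormMinus 1 (ZMod 2) a b x₀ = 1 := by simp [quadFormMinus, x₀]
    refine ⟨j x₀, by rw [h.hjQ]; exact hx₀, fun r hr h0 => ?_⟩
    have h8 := h.ind_refl rfl bb (c := sgnGL) hρ1 ρ₀ hψr hr (fun i => (CForm.minusF (ZMod 2) 3 a b hab).B_eq_zero (h.hje _ _))
    have h9 := congrFun hs r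
    have h10 := hx r (fun g => h.refl_big le_rfl hw1 hr g)
    rw [h0] at h10
    have h11 : χ₂ r = 0 := by
      rcases mul_eq_zero.1 h10.symm with h12 | h12
      · exact absurd h12 (pow_ne_zero _ (by norm_num))
      · exact h12
    apply h8
    rw [← h9, Pi.add_apply, h0, h11, add_zero]

include hab in
/-- **`Ω⁻₈(2)` has an irreducible character of degree divisible by `10`** -/
theorem o8m_zmod' : ∃ d, 10 ∣ d ∧ Ch (POmega (ZMod 2) (quadFormMinus 3 (ZMod 2) a b)) d := by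
  obtain ⟨c, d, χ₁, h1, h3, h5, h6, h7, n, hn, hr⟩ := ch_o8m' a b hab
  obtain ⟨h8, h9⟩ := arith_o8m h5 h6 h7
  have : Fact (Nat.Prime 2) := ⟨Nat.prime_two⟩
  have : CharP (ZMod 2) 2 := ZMod.charP 2
  obtain ⟨r, hr1, hr2⟩ := exists_refl (Cfsg.Agent.LieClassical.OrthForms.minusForm 3 (ZMod 2) a b)
    (Cfsg.Agent.LieClassical.OrthForms.coe_minusForm 3 (ZMod 2) a b)
    (Cfsg.Agent.LieClassical.OrthForms.nondeg_minusForm 3 (ZMod 2) a b hab) (by simp) hn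
  have hidx : (Omega (ZMod 2) (quadFormMinus 3 (ZMod 2) a b)).index = 2 := by
    have h10 := minus_idx_mul (ZMod 2) a b hab (l := 3) le_rfl
    rw [Nat.card_zmod] at h10
    have h11 : Nat.gcd 4 (2 ^ (3 + 1) + 1) = 1 := by decide
    rw [h11] at h10
    have h12 : (Omega (ZMod 2) (quadFormMinus 3 (ZMod 2) a b)).index ∣ 2 := Dvd.intro _ h10
    rcases (Nat.dvd_prime Nat.prime_two).1 h12 with h13 | h13
    · rw [Subgroup.index_eq_one] at h13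
      refine absurd ?_ hr1
      have h14 := Subgroup.mem_top r
      rw [← h13] at h14
      exact h14
    · exact h13
  let E := isoQuad (CForm.minusF (ZMod 2) 3 a b hab) (minus_hB (ZMod 2) 3 a b hab)
  have hχ' : IsIrrCharacter _ (χ₁ ∘ E.toMonoidHom) := Core.isIrr_comp _ E.surjective h1
  have hne : (χ₁ ∘ E.toMonoidHom) r ≠ 0 := by
    refine hr (E r) ⟨hn, fun v => ?_⟩
    have e1 : (CForm.minusF (ZMod 2) 3 a b hab).B v n = quadFormMinus 3 (ZMod 2) a b (v + n) -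
      quadFormMinus 3 (ZMod 2) a b v - quadFormMinus 3 (ZMod 2) a b n := minus_hB (ZMod 2) 3 a b hab v n
    rw [e1]
    exact hr2 v
  have hθ := irr_res_of_ne hidx hχ' hr1 hne
  obtain ⟨η, hη, hη'⟩ := exists_quot (Subgroup.center (Omega (ZMod 2) (quadFormMinus 3 (ZMod 2) a b))) hθ (fun z hz => by
    have h10 : omMat z = 1 := minus_cen (ZMod 2) (p := 2) a b hab z hz
    have h11 : z = 1 := Subtype.ext (Subtype.ext (Units.ext h10))
    rw [h11])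
  refine ⟨2 ^ c * d, ?_, η, hη, ?_⟩
  · have h10 : 5 ∣ d := Dvd.dvd.trans (by norm_num) h8
    have h11 : 2 ∣ 2 ^ c := by
      rcases Nat.eq_zero_or_pos c with rfl | h0
      · omega
      · exact dvd_pow_self 2 h0.ne'
    exact Nat.mul_dvd_mul h11 h10
  · have := hη' 1
    rw [QuotientGroup.mk_one] at this
    rw [this]
    change χ₁ (E 1) = _
    rw [map_one, h3]

end main

/-- **`Ω⁻₈(2)` has an irreducible character of degree divisible by `10`** -/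
theorem o8m_ten {K : Type u} [Field K] [Finite K] (hK : Nat.card K = 2) {a b : K}
    (hab : ∀ z₁ z₂ : K, z₁ ^ 2 + a * z₁ * z₂ + b * z₂ ^ 2 = 0 → z₁ = 0 ∧ z₂ = 0) :
    ∃ d, 10 ∣ d ∧ Ch (POmega K (quadFormMinus 3 K a b)) d := by
  classical
  let _ := Fintype.ofFinite K
  have hF : Fintype.card K = 2 := by rw [← Nat.card_eq_fintype_card, hK]
  let σ : K ≃+* ZMod 2 := FiniteField.ringEquivOfCardEq (by rw [hF, ZMod.card 2])
  have hab' : ∀ z₁ z₂ : ZMod 2, z₁ ^ 2 + σ a * z₁ * z₂ + σ b * z₂ ^ 2 = 0 → z₁ = 0 ∧ z₂ = 0 := by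
    intro z₁ z₂ h
    have h1 := hab (σ.symm z₁) (σ.symm z₂) (σ.injective (by
      rw [map_zero, map_add, map_add, map_mul, map_mul, map_mul, map_pow, map_pow, RingEquiv.apply_symm_apply,
        RingEquiv.apply_symm_apply]
      exact h))
    exact ⟨(map_eq_zero_iff σ.symm σ.symm.injective).1 h1.1, (map_eq_zero_iff σ.symm σ.symm.injective).1 h1.2⟩
  obtain ⟨d, h1, χ, hχ, hχ1⟩ := o8m_zmod' (σ a) (σ b) hab'
  obtain ⟨E⟩ := Cfsg.Agent.UGT.U2.Rec.Congr.nonempty_POmega σ (Q := quadFormMinus 3 K a b)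
    (Q' := quadFormMinus 3 (ZMod 2) (σ a) (σ b)) (quadFormMinus_map σ 3 a b)
  refine ⟨d, h1, χ ∘ E.toMonoidHom, Core.isIrr_comp E.toMonoidHom E.surjective hχ, ?_⟩
  change χ (E 1) = _
  rw [map_one, hχ1]

end Cfsg.Agent.H477.HC
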