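import Cfsg.Agent.H477.HC.N11
import Cfsg.Agent.H722.HC.PrPlus

/-!
# `Ω⁺₁₀(2)` : a character of degree divisible by `14` (hub H5, helper477)
-/

set_option autoImplicit false

open scoped ComplexConjugate
open Cfsg

namespace Cfsg.Agent.H477.HC

open Cfsg.Agent.OddOrderCharacters.Clifford Cfsg.Agent.Characters MulAction Module Cfsg.Agent.H53.HC
open Cfsg.Agent.H749.Two Cfsg.Agent.H722.HC

universe u v w x

/-- two distinct constituents -/
theorem deg_two_le {G : Type*} [Group G] [Fintype G] {θ α β : G → ℂ} (hθ : IsCharacter G θ) (hα : IsIrrCharacter G α)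
    (hβ : IsIrrCharacter G β) (hne : α ≠ β) (h1 : classInner θ α ≠ 0) (h2 : classInner θ β ≠ 0) {a b n : ℕ}
    (ha : α 1 = a) (hb : β 1 = b) (hn : θ 1 = n) : a + b ≤ n := by
  classical
  have := Core.finite_irr (G := G)
  have := Fintype.ofFinite (IrrCharacter G)
  have h3 := congrFun (Core.classFunction_eq_sum (Core.isCharacter_isClassFunction hθ)) 1
  have h4 : ∀ χ : IrrCharacter G, ∃ m : ℕ, classInner θ χ.1 = m := fun χ =>
    Core.classInner_isNat hθ (Core.isIrr_isCharacter χ.2)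
  have h5 : ∀ χ : IrrCharacter G, ∃ m : ℕ, χ.1 1 = (m : ℂ) := fun χ => by
    obtain ⟨m, -, hm⟩ := Core.isIrr_apply_one χ.2
    exact ⟨m, hm⟩
  choose c hc using h4
  choose d hd using h5
  have h6 : (n : ℂ) = ((∑ χ : IrrCharacter G, c χ * d χ : ℕ) : ℂ) := by
    rw [← hn, h3]
    simp only [Finset.sum_apply, Pi.smul_apply, smul_eq_mul]
    push_cast
    refine Finset.sum_congr rfl fun χ _ => ?_
    rw [hc, hd]
  have h7 : n = ∑ χ : IrrCharacter G, c χ * d χ := by exact_mod_cast h6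
  have h8 : ∑ χ ∈ ({⟨α, hα⟩, ⟨β, hβ⟩} : Finset (IrrCharacter G)), c χ * d χ ≤ n := by
    rw [h7]
    exact Finset.sum_le_univ_sum_of_nonneg fun _ => Nat.zero_le _
  rw [Finset.sum_pair (fun h => hne (congrArg Subtype.val h))] at h8
  have ha' : d ⟨α, hα⟩ = a := by
    have h9 : α 1 = d ⟨α, hα⟩ := hd ⟨α, hα⟩
    rw [ha] at h9
    exact_mod_cast h9.symm
  have hb' : d ⟨β, hβ⟩ = b := by
    have h9 : β 1 = d ⟨β, hβ⟩ := hd ⟨β, hβ⟩
    rw [hb] at h9
    exact_mod_cast h9.symm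
  have hc1 : 1 ≤ c ⟨α, hα⟩ := by
    rcases Nat.eq_zero_or_pos (c ⟨α, hα⟩) with h | h
    · have := hc ⟨α, hα⟩
      rw [h, Nat.cast_zero] at this
      exact absurd this h1
    · exact h
  have hc2 : 1 ≤ c ⟨β, hβ⟩ := by
    rcases Nat.eq_zero_or_pos (c ⟨β, hβ⟩) with h | h
    · have := hc ⟨β, hβ⟩
      rw [h, Nat.cast_zero] at this
      exact absurd this h2
    · exact h
  rw [ha', hb'] at h8
  nlinarith

/-- **a rationality criterion**: `ψ` is a constituent of a rational character `ψ + θ`, `θ` has a constituent of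
degree `b ≠ ψ 1`, and `θ 1 < ψ 1 + b`. -/
theorem rat_of_perm {G : Type*} [Group G] [Finite G] {ψ ψ' θ θ' : G → ℂ} (hψ : IsIrrCharacter G ψ)
    (hψ' : IsIrrCharacter G ψ') (hθ : IsCharacter G θ) (hθ' : IsCharacter G θ') (he : ψ + θ = ψ' + θ')
    (hr : ∀ g, ∃ q : ℚ, (ψ + θ) g = q) {a b n : ℕ} (ha : ψ 1 = a) (hb : ψ' 1 = b) (hn : θ 1 = n) (hab : a ≠ b)
    (hlt : n < a + b) (g : G) : ∃ q : ℚ, ψ g = q := by
  classical
  have := Fintype.ofFinite G
  refine GaloisBasic.exists_rat_of_forall_ringEquiv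
    ((GaloisBasic.isIntegral_apply (Core.isIrr_isCharacter hψ) g).tower_top) fun σ => ?_
  have h1 := GaloisIrr.isIrr_map σ hψ
  by_contra hne
  have hne' : (fun g => σ (ψ g)) ≠ ψ := fun h => hne (congrFun h g)
  have hψψ' : ψ ≠ ψ' := by
    rintro rfl
    rw [ha] at hb
    exact hab (by exact_mod_cast hb)
  have hσ1 : (fun g => σ (ψ g)) 1 = (a : ℂ) := by
    change σ (ψ 1) = _
    rw [ha, map_natCast]
  have hσψ' : (fun g => σ (ψ g)) ≠ ψ' := by
    intro h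
    have h2 : (fun g => σ (ψ g)) 1 = ψ' 1 := congrFun h 1
    rw [hσ1, hb] at h2
    exact hab (by exact_mod_cast h2)
  -- the constituents of `θ`
  have hadd : ∀ β : G → ℂ, classInner (ψ + θ) β = classInner ψ β + classInner θ β := fun β => Core.classInner_add_left _ _ _
  have h2 : classInner θ ψ' ≠ 0 := by
    have h3 := hadd ψ'
    rw [Core.classInner_irr_ne hψ hψ' hψψ', zero_add, he, Core.classInner_add_left, Core.classInner_irr_self hψ'] at h3
    rw [← h3]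
    obtain ⟨m, hm⟩ := Core.classInner_isNat hθ' (Core.isIrr_isCharacter hψ')
    rw [hm]
    intro h4
    have : (1 + m : ℕ) = 0 := by exact_mod_cast h4
    omega
  have h3 : classInner θ (fun g => σ (ψ g)) ≠ 0 := by
    have h4 := hadd (fun g => σ (ψ g))
    rw [Core.classInner_irr_ne hψ h1 (Ne.symm hne'), zero_add] at h4
    rw [← h4]
    have h5 : ψ + θ = fun g => σ ((ψ + θ) g) := by
      ext x
      obtain ⟨q, hq⟩ := hr x
      rw [hq]
      simp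
    rw [h5, GaloisIrr.classInner_map σ (Core.isIrr_isCharacter hψ), hadd, Core.classInner_irr_self hψ]
    obtain ⟨m, hm⟩ := Core.classInner_isNat hθ (Core.isIrr_isCharacter hψ)
    rw [hm]
    intro h6
    have h7 : (1 : ℂ) + m = 0 := σ.injective (by rw [h6, map_zero])
    have : (1 + m : ℕ) = 0 := by exact_mod_cast h7
    omega
  have h4 := deg_two_le hθ h1 hψ' hσψ' h3 h2 hσ1 hb hn
  omega

/-- the character of degree `14` of `O⁺₆(2)` -/
theorem exists_psi14 : ∃ ψ θ : (CForm.plusF (ZMod 2) 3).iso → ℂ,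
    IsIrrCharacter (CForm.plusF (ZMod 2) 3).iso ψ ∧ IsCharacter (CForm.plusF (ZMod 2) 3).iso θ ∧
    (∀ g, ψ g + θ g = (Nat.card {y : (CForm.plusF (ZMod 2) 3).Pt // g • y = y} : ℂ)) ∧
    ψ 1 = ((14 : ℕ) : ℂ) ∧ ∀ g, ∃ q : ℚ, ψ g = q := by
  have := finite_iso (CForm.plusF (ZMod 2) 3)
  obtain ⟨ψ₁, ψ₂, θ₁, θ₂, a, b, h1, h2, h3, h4, h5, h6, h7, h8, h9, h10, -⟩ := chars_plus (ZMod 2) (m := 3) (by norm_num)
  rw [Nat.card_zmod] at h5 h6
  have ha : a = 14 := by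
    push_cast at h5
    have : (a : ℤ) = 14 := by linarith
    exact_mod_cast this
  have hb : b = 20 := by
    push_cast at h6
    have : (b : ℤ) = 20 := by linarith
    exact_mod_cast this
  subst ha hb
  have hcard : Nat.card (CForm.plusF (ZMod 2) 3).Pt = 35 := by
    have hq := (CForm.plusF (ZMod 2) 3).card_sing
    have hs : Nat.card {v // (CForm.plusF (ZMod 2) 3).Q v = 0} = _ := S0289.result (F := ZMod 2) (ZMod.card 2) 3 (by norm_num)
    rw [card_Sing_quad, hs, Nat.card_zmod] at hq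
    norm_num at hq
    omega
  have hn : θ₁ 1 = ((21 : ℕ) : ℂ) := by
    have h11 := h9 1
    have h12 : Nat.card {y : (CForm.plusF (ZMod 2) 3).Pt // (1 : (CForm.plusF (ZMod 2) 3).iso) • y = y} = 35 := by
      rw [← hcard]
      exact Nat.card_congr (Equiv.subtypeUnivEquiv fun y => one_smul _ y)
    rw [h12, h3] at h11
    push_cast at h11 ⊢
    linear_combination h11
  refine ⟨ψ₁, θ₁, h1, h7, h9, h3, rat_of_perm h1 h2 h7 h8 ?_ ?_ h3 h4 hn (by norm_num) (by norm_num)⟩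
  · ext g
    rw [Pi.add_apply, Pi.add_apply, h9, h10]
  · intro g
    exact ⟨(Nat.card {y : (CForm.plusF (ZMod 2) 3).Pt // g • y = y} : ℚ), by rw [Pi.add_apply, h9]; push_cast; rfl⟩

/-- `O⁺₁₀(2)` -/
theorem ch_o10p : ∃ (b d : ℕ) (χ₁ : (CForm.plusF (ZMod 2) 5).iso → ℂ),
    IsIrrCharacter (CForm.plusF (ZMod 2) 5).iso χ₁ ∧ χ₁ 1 = ((2 ^ b * d : ℕ) : ℂ) ∧ (2 ^ b + 1) * d = 23715 * 14 ∧
    b ≤ 13 ∧ b ≠ 0 ∧ Even (b + 13) := by
  classical
  obtain ⟨e, f, j, h⟩ := CForm.frm_plus (K := ZMod 2) (k := 2) (n := 3) (m := 5) rfl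
  obtain ⟨ψ, θ, hψ, hθ, hsum, hψ1, hψq⟩ := exists_psi14
  have halt := CForm.alt_of_hB (F := CForm.plusF (ZMod 2) 5) (plus_hB (ZMod 2) 5)
  have hU : Nat.card (CForm.Us (CForm.plusF (ZMod 2) 5) e) = 2 ^ 13 := by
    rw [h.card_Us_orth halt (fun x => rfl)]
    rw [Nat.card_eq_fintype_card]
    simp
  have := finite_iso (CForm.plusF (ZMod 2) 5)
  let _ : Fintype (CForm.plusF (ZMod 2) 5).iso := Fintype.ofFinite _
  let _ : Fintype (stabW (CForm.plusF (ZMod 2) 5).iso.subtype (Submodule.span (ZMod 2) (Set.range e))) :=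
    Fintype.ofFinite _
  let _ : Fintype (CForm.Us (CForm.plusF (ZMod 2) 5) e) := Fintype.ofFinite _
  obtain ⟨w, hw1, hw2, hw3⟩ := h.exists_w
  have hcmp := h.cmp rfl
  obtain ⟨pr, hρ1, hρ2, hρ3⟩ := hcmp.exists_rho
  have hsurj : Function.Surjective pr := fun b => by
    obtain ⟨g, hg, -⟩ := hρ3 1 b
    exact ⟨g, hg⟩
  obtain ⟨m, ρ₀, hρ₀, rfl⟩ := id hψ
  let bb : Basis (Fin 2) (ZMod 2) (Submodule.span (ZMod 2) (Set.range e)) := finBasisOfFinrankEq (ZMod 2) _ h.mem_Om.2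
  obtain ⟨hn, A, c, d, χ₁, χ₂, ⟨h1, h2, hs, h3, h4, h5, h6, h7⟩, -, hTT, hA, -⟩ := h.two_data rfl (by norm_num) CForm.ε_two
    hw1 hw2 hw3 bb (sgnGL_iota _) sgnGL_cusp (fun A => ⟨((sgM (A : Matrix (Fin 2) (Fin 2) (ZMod 2)) : ℤ) : ℚ), by
      rw [sgnGL_val]; push_cast; rfl⟩) hρ1 hρ2 hsurj ρ₀ hψ hψ1 hψq
    (fun W' hW' k1 k2 => CForm.van_pt hcmp le_rfl (Core.isIrr_isCharacter (CForm.isIrr_cfun _)) sgnGL_cusp
      (Core.isIrr_isCharacter hψ) hθ hsum hρ1 hρ2 h.mem_Om hW' k1 k2) Nat.prime_two hU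
  have hA0 : (A : ℂ) ≠ 0 := h.A_ne_zero rfl (fun x => rfl) hw1 hw2 hw3 bb hρ1 ρ₀ hψ1 (by norm_num) hn hTT
  have hc0 : c ≠ 0 := by
    rintro rfl
    apply hA0
    rw [add_zero, Nat.sub_zero] at hA
    have : A ^ 2 = 0 := by linarith
    rw [pow_eq_zero_iff two_ne_zero] at this
    rw [this, Int.cast_zero]
  refine ⟨c, d, χ₁, h1, h3, ?_, h6, hc0, h7 hc0⟩
  rw [h5]
  have h8 := (CForm.plusF (ZMod 2) 5).card_iso_eq h.mem_Om
  rw [h.card_par rfl, hU, card_GL22, card_plusF (ZMod 2) (by norm_num), card_plusF (ZMod 2) (by norm_num),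
    Nat.card_zmod] at h8
  obtain ⟨n, hn⟩ : ∃ n, n = Nat.card ((CForm.plusF (ZMod 2) 5).Om 2) := ⟨_, rfl⟩
  rw [← hn] at h8 ⊢
  norm_num [Finset.prod_range_succ] at h8
  omega

theorem arith_o10p {b d : ℕ} (h1 : (2 ^ b + 1) * d = 23715 * 14) (h2 : b ≤ 13) (h3 : b ≠ 0) (h4 : Even (b + 13)) :
    28 ∣ 2 ^ b * d := by
  have h5 : b = 1 ∨ b = 3 ∨ b = 5 ∨ b = 7 ∨ b = 9 ∨ b = 11 ∨ b = 13 := by
    obtain ⟨x, hx⟩ := h4
    omega
  rcases h5 with rfl | rfl | rfl | rfl | rfl | rfl | rfl <;> norm_num at h1 ⊢ <;> omega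

/-- **`Ω⁺₁₀(2)` has an irreducible character of degree divisible by `14`** -/
theorem o10p_zmod : ∃ d, 14 ∣ d ∧ Ch (POmega (ZMod 2) (quadFormPlus 5 (ZMod 2))) d := by
  obtain ⟨b, d, χ, h1, h2, h3, h4, h5, h6⟩ := ch_o10p
  have h7 := arith_o10p h3 h4 h5 h6
  have h8 := plus_idx_mul (ZMod 2) (m := 5) (by norm_num)
  rw [Nat.card_zmod, show Nat.gcd 4 (2 ^ 5 - 1) = 1 by decide] at h8
  obtain ⟨e, i, h9, h10, h11, h12⟩ := plus_dn (ZMod 2) (m := 5) (t := 1) (by norm_num)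
    (by rw [pow_one]; exact Dvd.intro _ (h8.trans (mul_one 2))) h1 h2 (fun z c _ hz => by
      have hc : c = 1 := Subsingleton.elim _ _
      congr 1
      apply Subtype.ext
      ext v : 1
      rw [hz, hc, Units.val_one, one_smul]
      rfl)
  refine ⟨e, ?_, h9⟩
  rw [h10] at h7
  interval_cases i
  · rw [pow_zero, mul_one] at h7
    exact Dvd.dvd.trans (by norm_num) h7
  · rw [pow_one] at h7
    exact Nat.dvd_of_mul_dvd_mul_right (by norm_num) h7

/-- **`Ω⁺₁₀(2)` has an irreducible character of degree divisible by `14`** -/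
theorem o10p_two {K : Type u} [Field K] [Finite K] (hK : Nat.card K = 2) :
    ∃ d, 14 ∣ d ∧ Ch (POmega K (quadFormPlus 5 K)) d := by
  classical
  let _ := Fintype.ofFinite K
  have hF : Fintype.card K = 2 := by rw [← Nat.card_eq_fintype_card, hK]
  let σ : K ≃+* ZMod 2 := FiniteField.ringEquivOfCardEq (by rw [hF, ZMod.card 2])
  obtain ⟨d, h1, χ, hχ, hχ1⟩ := o10p_zmod
  obtain ⟨E⟩ := Cfsg.Agent.UGT.U2.Rec.Congr.nonempty_POmega σ (Q := quadFormPlus 5 K)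
    (Q' := quadFormPlus 5 (ZMod 2)) (fun v => by simp [quadFormPlus, map_sum, map_mul])
  refine ⟨d, h1, χ ∘ E.toMonoidHom, Core.isIrr_comp E.toMonoidHom E.surjective hχ, ?_⟩
  change χ (E 1) = _
  rw [map_one, hχ1]

end Cfsg.Agent.H477.HC
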