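import Cfsg.Agent.H477.HC.N5

/-!
# `PSp₈(2)` : a character of degree divisible by `14` (hub H5, helper477)
-/

set_option autoImplicit false

open scoped ComplexConjugate
open Cfsg

namespace Cfsg.Agent.H477.HC

open Cfsg.Agent.OddOrderCharacters.Clifford Cfsg.Agent.Characters MulAction Module Cfsg.Agent.H53.HC
open Cfsg.Agent.H749.Two

universe u v w x

/-- from `Sp_{2m}(2)` to `PSp_{2m}(K)` -/
theorem psp_two (K : Type u) [Field K] [Finite K] (hK : Nat.card K = 2) (m : ℕ)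
    {χ : (CForm.spF (ZMod 2) m).iso → ℂ} (hχ : IsIrrCharacter _ χ) {d : ℕ} (hd : χ 1 = d) : Ch (PSp m K) d := by
  classical
  let _ := Fintype.ofFinite K
  have hF : Fintype.card K = 2 := by rw [← Nat.card_eq_fintype_card, hK]
  have hfin : Finite (Matrix.symplecticGroup (Fin m) (ZMod 2)) := inferInstance
  have hχ' : IsIrrCharacter _ (χ ∘ (isoSp m (ZMod 2)).toMonoidHom) :=
    Core.isIrr_comp (isoSp m (ZMod 2)).toMonoidHom (isoSp m (ZMod 2)).surjective hχ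
  obtain ⟨η, hη, hη'⟩ := exists_quot (Subgroup.center (Matrix.symplecticGroup (Fin m) (ZMod 2))) hχ' (fun z hz => by
    change χ (isoSp m (ZMod 2) z) = χ (isoSp m (ZMod 2) 1)
    have hz1 : z = 1 := by
      apply Subtype.ext
      rcases Cfsg.Agent.ClassicalGeometry.SympInvolutions.center_eq hz with h | h
      · exact h
      · rw [h]
        change -(1 : Matrix (Fin m ⊕ Fin m) (Fin m ⊕ Fin m) (ZMod 2)) = 1
        ext i l
        rw [Matrix.neg_apply]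
        exact (by decide : ∀ x : ZMod 2, -x = x) _
    rw [hz1])
  have hη1 : η 1 = (d : ℂ) := by
    have := hη' 1
    rw [QuotientGroup.mk_one] at this
    rw [this]
    change χ (isoSp m (ZMod 2) 1) = _
    rw [map_one, hd]
  have e0 : K ≃+* ZMod 2 := FiniteField.ringEquivOfCardEq (by rw [hF, ZMod.card 2])
  let E : PSp m K ≃* PSp m (ZMod 2) := Cfsg.Agent.LieClassical.FieldTransfer.pspCongr m e0
  refine ⟨η ∘ E.toMonoidHom, Core.isIrr_comp E.toMonoidHom E.surjective hη, ?_⟩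
  change η (E 1) = _
  rw [map_one, hη1]

namespace CForm

variable {K : Type u} [Field K] {V : Type v} [AddCommGroup V] [Module K V] {F : CForm K V}
  {X : Type w} [AddCommGroup X] [Module K X] {F' : CForm K X} {k : ℕ} {e f : Fin k → V} {j : X →ₗ[K] V}

theorem psf_const {W₀ : Submodule K V} {ψ : stabW F.iso.subtype W₀ → ℂ} (hψ : ∀ g, ψ g = 1) {x g : F.iso}
    {W : Submodule K V} (hx : W₀.map (F.iso.subtype x : V →ₗ[K] V) = W) (hg : x⁻¹ * g * x ∈ stabW F.iso.subtype W₀) :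
    psf F W₀ ψ g W = 1 := by
  have hcl : IsClassFunction _ ψ := fun g h => by rw [hψ, hψ]
  rw [psf_eq hcl hx hg, hψ]

/-- the vanishing condition for `ψ₀ = 1`, `k ≥ 2` -/
theorem van_const [FiniteDimensional K V] [Finite V] (hk : 2 ≤ k) {c : GL (Fin k) K → ℂ}
    (hcf : IsClassFunction _ c) (hcusp : IsCusp c) {W₀ W' : Submodule K V} {ψ : stabW F.iso.subtype W₀ → ℂ}
    (hψ : ∀ g, ψ g = 1)
    (hW₀ : W₀ ∈ F.Om k) (hW' : W' ∈ F.Om k) (hperp : W₀ ≤ F.perp W') (h0 : W₀ ⊓ W' = ⊥) :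
    F.Van c (psf F W₀ ψ) W₀ W' := by
  obtain ⟨L, hL1, hL2, hL⟩ := van_case3 (F := F) hk hcf hcusp (ψ := fun _ _ => 1) (fun _ _ => rfl) hW₀ hW' hperp h0
  refine ⟨L, hL1, hL2, fun {_} => ?_⟩
  rw [← hL]
  refine Finset.sum_congr rfl fun l _ => ?_
  obtain ⟨x, hx⟩ := F.trans_Om hW₀ hW'
  rw [psf_const hψ (x := 1) (g := (l : F.iso)) (W := W₀) (by rw [map_one]; exact Submodule.map_id _)
    (by rw [inv_one, one_mul, mul_one]; exact hL1 l.2), psf_const hψ hx]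
  change W₀.map (F.iso.subtype (x⁻¹ * (l : F.iso) * x) : V →ₗ[K] V) = W₀
  have h1 : W'.map (F.iso.subtype (l : F.iso) : V →ₗ[K] V) = W' := hL2 l.2
  have h2 : W'.map (F.iso.subtype x⁻¹ : V →ₗ[K] V) = W₀ := by
    rw [← hx, ← map_mul_apply, inv_mul_cancel, map_one]
    exact Submodule.map_id _
  rw [map_mul_apply, map_mul_apply, hx, h1, h2]

end CForm

/-- `Sp₈(2)` -/
theorem ch_sp8 : ∃ (c d : ℕ) (χ₁ χ₂ : (CForm.spF (ZMod 2) 4).iso → ℂ),
    IsIrrCharacter (CForm.spF (ZMod 2) 4).iso χ₁ ∧ IsIrrCharacter (CForm.spF (ZMod 2) 4).iso χ₂ ∧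
      χ₁ 1 = ((2 ^ c * d : ℕ) : ℂ) ∧ χ₂ 1 = (d : ℂ) ∧ (2 ^ c + 1) * d = 5355 := by
  obtain ⟨e, f, j, h⟩ := CForm.frm_sp (K := ZMod 2) (k := 2) (n := 2) (m := 4) rfl
  have hU : Nat.card (CForm.Us (CForm.spF (ZMod 2) 4) e) = 2 ^ 11 := by
    rw [h.card_Us_sp (fun v => (CForm.spF (ZMod 2) 4).alt v rfl) (fun x => rfl) (fun x => rfl)]
    rw [Nat.card_eq_fintype_card]
    simp
  obtain ⟨c, d, χ₁, χ₂, h1, h2, h3, h4, h5, h6, h7⟩ := h.exists_two rfl (by norm_num) CForm.ε_two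
    (sgnGL_iota _) sgnGL_cusp (fun A => ⟨((sgM (A : Matrix (Fin 2) (Fin 2) (ZMod 2)) : ℤ) : ℚ), by
      rw [sgnGL_val]; push_cast; rfl⟩) (ψ₀ := 1) Core.isIrr_one (n₀ := 1) (by simp) (fun g => ⟨1, by simp⟩)
      Nat.prime_two hU
    (fun pr _ _ W' hW' k1 k2 => CForm.van_const (by norm_num) (CForm.cfun_cl _) sgnGL_cusp (fun _ => rfl) h.mem_Om hW'
      k1 k2)
  refine ⟨c, d, χ₁, χ₂, h1, h2, h3, h4, ?_⟩
  rw [h5]
  have h8 := (CForm.spF (ZMod 2) 4).card_iso_eq h.mem_Om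
  rw [h.card_par rfl, hU, card_GL22, card_spF, card_spF, Nat.card_zmod] at h8
  obtain ⟨n, hn⟩ : ∃ n, n = Nat.card ((CForm.spF (ZMod 2) 4).Om 2) := ⟨_, rfl⟩
  rw [← hn] at h8 ⊢
  norm_num [Finset.prod_range_succ] at h8
  omega

/-- **`PSp₈(2)`** -/
theorem sp8_two (K : Type u) [Field K] [Finite K] (hK : Nat.card K = 2) : ∃ d, 14 ∣ d ∧ Ch (PSp 4 K) d := by
  obtain ⟨c, d, χ₁, χ₂, h1, -, h3, -, h5⟩ := ch_sp8
  refine ⟨2 ^ c * d, ?_, psp_two K hK 4 h1 h3⟩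
  have h7 : 7 ∣ d := by
    have h6 : 7 ∣ (2 ^ c + 1) * d := by rw [h5]; norm_num
    refine (Nat.Prime.dvd_mul (by norm_num)).1 h6 |>.resolve_left fun h8 => ?_
    have h9 : ∀ n : ℕ, ¬ 7 ∣ 2 ^ n + 1 := by
      intro n
      have h10 : 2 ^ n % 7 = 1 ∨ 2 ^ n % 7 = 2 ∨ 2 ^ n % 7 = 4 := by
        induction n with
        | zero => left; rfl
        | succ n ih => rw [pow_succ]; omega
      omega
    exact h9 c h8
  have h2 : 2 ∣ 2 ^ c := by
    rcases Nat.eq_zero_or_pos c with rfl | h0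
    · omega
    · exact dvd_pow_self 2 h0.ne'
  exact Nat.mul_dvd_mul h2 h7

end Cfsg.Agent.H477.HC
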