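import Cfsg.Agent.H477.HC.N8
import Cfsg.Agent.ClassicalGeometry.OrthDickson
import Cfsg.Agent.LieClassical.OrthForms

/-!
# `Ω⁻₈(2)` : a character of degree divisible by `10` (hub H5, helper477)

The class of reflections acts as a scalar on the induced module (no reflection is in the big cell), hence the two
constituents do not vanish at the reflections, and stay irreducible on the commutator subgroup.
-/

set_option autoImplicit false

open scoped ComplexConjugate
open Cfsg

namespace Cfsg.Agent.H477.HC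

open Cfsg.Agent.OddOrderCharacters.Clifford Cfsg.Agent.Characters MulAction Module Cfsg.Agent.H53.HC
open Cfsg.Agent.H749.Two

universe u v w x

/-- restriction to a subgroup of index two -/
theorem irr_res_of_ne {G : Type*} [Group G] [Finite G] {H : Subgroup G} (hH : H.index = 2) {χ : G → ℂ}
    (hχ : IsIrrCharacter G χ) {x : G} (hx : x ∉ H) (h0 : χ x ≠ 0) : IsIrrCharacter H (χ ∘ H.subtype) := by
  classical
  have := Fintype.ofFinite G
  have := Fintype.ofFinite H
  have hc : IsCharacter H (χ ∘ H.subtype) := Core.isCharacter_comp H.subtype (Core.isIrr_isCharacter hχ)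
  obtain ⟨n, hn⟩ := Core.classInner_isNat hc hc
  have hcG : (Nat.card G : ℂ) ≠ 0 := by exact_mod_cast (Nat.card_pos (α := G)).ne'
  have hcH : (Nat.card H : ℂ) ≠ 0 := by exact_mod_cast (Nat.card_pos (α := H)).ne'
  have h1 : ∑ g : G, ‖χ g‖ ^ 2 = (Nat.card G : ℝ) := by
    have h := Core.classInner_irr_self hχ
    rw [Core.classInner_def, inv_mul_eq_iff_eq_mul₀ hcG, mul_one] at h
    have h1 : ((∑ g : G, ‖χ g‖ ^ 2 : ℝ) : ℂ) = (Nat.card G : ℂ) := by
      rw [← h, Complex.ofReal_sum]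
      refine Finset.sum_congr rfl fun g _ => ?_
      rw [Complex.mul_conj, Complex.normSq_eq_norm_sq]
    exact_mod_cast h1
  have h2 : ∑ g : H, ‖χ g‖ ^ 2 = (Nat.card H * n : ℝ) := by
    have h := hn
    rw [Core.classInner_def, inv_mul_eq_iff_eq_mul₀ hcH] at h
    have h1 : ((∑ g : H, ‖χ g‖ ^ 2 : ℝ) : ℂ) = (Nat.card H * n : ℂ) := by
      rw [← h, Complex.ofReal_sum]
      refine Finset.sum_congr rfl fun g _ => ?_
      rw [Complex.mul_conj, Complex.normSq_eq_norm_sq]
      rfl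
    exact_mod_cast h1
  have h3 : ∑ g ∈ Finset.univ.filter (fun g : G => g ∈ H), ‖χ g‖ ^ 2 = ∑ n : H, ‖χ n‖ ^ 2 :=
    Finset.sum_subtype _ (fun g => by simp) (fun g => ‖χ g‖ ^ 2)
  have h4 := Finset.sum_filter_add_sum_filter_not (Finset.univ : Finset G) (fun g : G => g ∈ H)
    (fun g => ‖χ g‖ ^ 2)
  have h5 : 0 < ∑ g ∈ Finset.univ.filter (fun g : G => g ∉ H), ‖χ g‖ ^ 2 := by
    refine Finset.sum_pos' (fun g _ => by positivity) ⟨x, by simp [hx], ?_⟩
    have := norm_pos_iff.2 h0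
    positivity
  have h6 : (Nat.card G : ℝ) = 2 * (Nat.card H : ℝ) := by
    rw [← H.index_mul_card, hH]; push_cast; ring
  rw [h3, h2, h1, h6] at h4
  have hpos : (0 : ℝ) < Nat.card H := by exact_mod_cast Nat.card_pos
  have h7 : (n : ℝ) < 2 := by
    by_contra h
    push Not at h
    nlinarith
  have h8 : n < 2 := by exact_mod_cast h7
  have h9 : n ≠ 0 := by
    rintro rfl
    rw [Nat.cast_zero] at hn
    have := Core.classInner_self_eq_zero hn
    have h10 := congrFun this 1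
    exact Core.isIrr_apply_one_ne_zero hχ h10
  have h10 : n = 1 := by omega
  exact Core.isIrr_of_classInner_self hc (by rw [hn, h10, Nat.cast_one])

namespace CForm

section

variable {V : Type v} [AddCommGroup V] [Module (ZMod 2) V] {F : CForm (ZMod 2) V}
  {X : Type w} [AddCommGroup X] [Module (ZMod 2) X] {F' : CForm (ZMod 2) X} {k : ℕ} {e f : Fin k → V}
  {j : X →ₗ[ZMod 2] V}

/-- `r` is the reflection in `n` -/
def IsRefl (F : CForm (ZMod 2) V) (r : F.iso) (n : V) : Prop :=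
  F.Q n = 1 ∧ ∀ v, (r : V ≃ₗ[ZMod 2] V) v = v + F.B v n • n

theorem IsRefl.conj {r : F.iso} {n : V} (h : F.IsRefl r n) (g : F.iso) :
    F.IsRefl (g⁻¹ * r * g) (((g⁻¹ : F.iso) : V ≃ₗ[ZMod 2] V) n) := by
  refine ⟨by rw [F.iso_Q, h.1], fun v => ?_⟩
  rw [mul_apply', mul_apply', h.2, map_add, inv_apply', map_smul, B_inv_right]

theorem eq_one2 : ∀ x : ZMod 2, x ≠ 0 → x = 1 := by decide

/-- a reflection is not in the big cell -/
theorem Frm.refl_big [FiniteDimensional (ZMod 2) V] (h : Frm F F' e f j) (hk : 2 ≤ k) {w : F.iso}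
    (hw1 : ∀ i, (w : V ≃ₗ[ZMod 2] V) (e i) = f i) {r : F.iso} {n : V} (hr : F.IsRefl r n) (g : F.iso) :
    ∀ u ∈ Us F e, ∀ p ∈ stabW F.iso.subtype (Submodule.span (ZMod 2) (Set.range e)), g⁻¹ * r * g ≠ u * w * p := by
  intro u hu p hp heq
  obtain ⟨n', hn'⟩ : ∃ n', F.IsRefl (g⁻¹ * r * g) n' := ⟨_, hr.conj g⟩
  rw [heq] at hn'
  -- a vector of `W₀` orthogonal to `n'`
  let l : Submodule.span (ZMod 2) (Set.range e) →ₗ[ZMod 2] ZMod 2 := (F.lf n').comp (Submodule.subtype _)
  obtain ⟨v, hv0, hv⟩ : ∃ v : Submodule.span (ZMod 2) (Set.range e), v ≠ 0 ∧ l v = 0 := by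
    by_contra hcon
    push Not at hcon
    have hinj : Function.Injective l := by
      rw [injective_iff_map_eq_zero]
      intro v hv
      by_contra h0
      exact hcon v h0 hv
    have h1 := LinearMap.finrank_le_finrank_of_injective hinj
    rw [h.finrank_e, finrank_self] at h1
    omega
  have hv' : F.B (v : V) n' = 0 := hv
  have h1 : ((u * w * p : F.iso) : V ≃ₗ[ZMod 2] V) v = v := by
    rw [hn'.2, hv', zero_smul, add_zero]
  obtain ⟨a, ha⟩ := (Submodule.mem_span_range_iff_exists_fun (ZMod 2)).1 (par_mem hp v.2)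
  have h2 : ((u * w * p : F.iso) : V ≃ₗ[ZMod 2] V) v = (u : V ≃ₗ[ZMod 2] V) (∑ i, a i • f i) := by
    rw [mul_apply', mul_apply', ← ha]
    congr 1
    rw [map_sum]
    exact Finset.sum_congr rfl fun i _ => by rw [map_smul, hw1]
  have h3 : (∑ i, a i • f i : V) = v := by
    have h4 := inv_apply' u (∑ i, a i • f i)
    rw [← h2, h1] at h4
    rw [← h4]
    exact Us_span (Subgroup.inv_mem _ hu) v.2
  have h4 : ∀ l, a l = 0 := by
    intro l
    have h5 : F.B (∑ i, a i • f i) (e l) = 0 := by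
      rw [h3]
      exact h.tse.2 _ v.2 _ (Submodule.subset_span ⟨l, rfl⟩)
    rw [B_sum_left] at h5
    simp only [h.hfe] at h5
    rw [sum_deltaε a F.ε l] at h5
    exact (mul_eq_zero.1 h5).resolve_right F.ε_ne
  apply hv0
  apply Subtype.ext
  rw [← h3]
  exact Finset.sum_eq_zero fun i _ => by rw [h4, zero_smul]

/-- the value at a reflection of the parabolic subgroup -/
theorem Frm.refl_par [FiniteDimensional (ZMod 2) V] [FiniteDimensional (ZMod 2) X] (h : Frm F F' e f j)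
    (hσ : F.σ = F'.σ)
    (b : Basis (Fin k) (ZMod 2) (Submodule.span (ZMod 2) (Set.range e)))
    {c : GL (Fin k) (ZMod 2) →* ℂˣ}
    {pr : stabW F.iso.subtype (Submodule.span (ZMod 2) (Set.range e)) →* F'.iso}
    (hρ1 : ∀ (g : stabW F.iso.subtype (Submodule.span (ZMod 2) (Set.range e))) y,
      ((g : F.iso) : V ≃ₗ[ZMod 2] V) (j y) - j ((pr g : X ≃ₗ[ZMod 2] X) y) ∈ Submodule.span (ZMod 2) (Set.range e))
    {M : Type x} [AddCommGroup M] [Module ℂ M] [FiniteDimensional ℂ M] (ρ₀ : Representation ℂ F'.iso M)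
    (hval : ∀ r n, F'.IsRefl r n → ρ₀.character r = 1) {r : F.iso} {n : V} (hr : F.IsRefl r n)
    (hrP : r ∈ stabW F.iso.subtype (Submodule.span (ZMod 2) (Set.range e))) :
    (crep b c pr ρ₀).character ⟨r, hrP⟩ = 1 := by
  -- `n` is orthogonal to `W₀`
  have hn : ∀ v ∈ Submodule.span (ZMod 2) (Set.range e), F.B v n = 0 := by
    intro v hv
    by_contra h0
    have h1 := par_mem hrP hv
    rw [hr.2, eq_one2 _ h0, one_smul] at h1
    have h2 : n ∈ Submodule.span (ZMod 2) (Set.range e) := by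
      have := Submodule.sub_mem _ h1 hv
      rwa [add_sub_cancel_left] at this
    have h3 := h.tse.1 n h2
    rw [hr.1] at h3
    exact absurd h3 (by decide)
  have hn' : n ∈ F.perp (Submodule.span (ZMod 2) (Set.range e)) := fun w hw => F.B_eq_zero (hn w hw)
  obtain ⟨w₀, hw₀, x, hx⟩ := (h.cmp hσ).j2 n hn'
  obtain ⟨q, hq, hqj, hqW⟩ := (h.cmp hσ).exists_proj
  have hres : resHom F.iso.subtype (Submodule.span (ZMod 2) (Set.range e)) ⟨r, hrP⟩ = 1 := by
    ext v
    change (r : V ≃ₗ[ZMod 2] V) v = v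
    rw [hr.2, hn _ v.2, zero_smul, add_zero]
  rw [crep_char, flagTerm_cfun b, hres, map_one, map_one, Units.val_one, one_mul, Function.comp_apply]
  refine hval _ x ⟨?_, fun y => ?_⟩
  · rw [← hr.1, hx, F.Q_add, h.tse.1 _ hw₀, h.hjQ]
    have : F.B w₀ (j x) = 0 := F.B_eq_zero ((h.cmp hσ).j1 x w₀ hw₀)
    rw [this, F.T_zero]
    ring
  · have h1 := hqW _ (hρ1 ⟨r, hrP⟩ y)
    rw [map_sub, hqj, sub_eq_zero] at h1
    rw [← h1]
    change q ((r : V ≃ₗ[ZMod 2] V) (j y)) = _
    rw [hr.2, map_add, map_smul, hqj, hx, map_add, hqj, hqW _ hw₀, zero_add, F.B_add_right, h.hjB]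
    have : F.B (j y) w₀ = 0 := (h.cmp hσ).j1 y w₀ hw₀
    rw [this, zero_add]

/-- the induced character does not vanish at the reflections of the parabolic subgroup -/
theorem Frm.ind_refl [FiniteDimensional (ZMod 2) V] [FiniteDimensional (ZMod 2) X] (h : Frm F F' e f j)
    (hσ : F.σ = F'.σ) [Fintype F.iso] [Fintype (stabW F.iso.subtype (Submodule.span (ZMod 2) (Set.range e)))]
    (b : Basis (Fin k) (ZMod 2) (Submodule.span (ZMod 2) (Set.range e)))
    {c : GL (Fin k) (ZMod 2) →* ℂˣ}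
    {pr : stabW F.iso.subtype (Submodule.span (ZMod 2) (Set.range e)) →* F'.iso}
    (hρ1 : ∀ (g : stabW F.iso.subtype (Submodule.span (ZMod 2) (Set.range e))) y,
      ((g : F.iso) : V ≃ₗ[ZMod 2] V) (j y) - j ((pr g : X ≃ₗ[ZMod 2] X) y) ∈ Submodule.span (ZMod 2) (Set.range e))
    {M : Type x} [AddCommGroup M] [Module ℂ M] [FiniteDimensional ℂ M] (ρ₀ : Representation ℂ F'.iso M)
    (hval : ∀ r n, F'.IsRefl r n → ρ₀.character r = 1) {r : F.iso} {n : V} (hr : F.IsRefl r n)
    (hn : ∀ i, F.B (e i) n = 0) :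
    indFun (stabW F.iso.subtype (Submodule.span (ZMod 2) (Set.range e))) (crep b c pr ρ₀).character r ≠ 0 := by
  classical
  have hrP : r ∈ stabW F.iso.subtype (Submodule.span (ZMod 2) (Set.range e)) := by
    rw [mem_par]
    intro i
    rw [hr.2, hn, zero_smul, add_zero]
    exact Submodule.subset_span ⟨i, rfl⟩
  have h1 : ∀ g : F.iso, extendByZero (stabW F.iso.subtype (Submodule.span (ZMod 2) (Set.range e)))
      (crep b c pr ρ₀).character (g⁻¹ * r * g) =
      ((if g⁻¹ * r * g ∈ stabW F.iso.subtype (Submodule.span (ZMod 2) (Set.range e)) then 1 else 0 : ℕ) : ℂ) := by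
    intro g
    by_cases hg : g⁻¹ * r * g ∈ stabW F.iso.subtype (Submodule.span (ZMod 2) (Set.range e))
    · rw [if_pos hg, ext_apply_mem _ _ _ hg, h.refl_par hσ b hρ1 ρ₀ hval (hr.conj g) hg, Nat.cast_one]
    · rw [if_neg hg, ext_apply_not_mem _ _ _ hg, Nat.cast_zero]
  rw [indFun_apply, Finset.sum_congr rfl fun g _ => h1 g, ← Nat.cast_sum]
  refine mul_ne_zero (inv_ne_zero card_ne_zero') (Nat.cast_ne_zero.2 ?_)
  refine (Finset.sum_pos' (fun _ _ => Nat.zero_le _) ⟨1, Finset.mem_univ _, ?_⟩).ne'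
  rw [if_pos]
  · exact Nat.one_pos
  · rw [inv_one, one_mul, mul_one]; exact hrP

end

end CForm

end Cfsg.Agent.H477.HC
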